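import Mathlib

set_option autoImplicit false

namespace Cfsg.Agent.Helper14.Psl3

open Matrix Polynomial

theorem pow_iff {F : Type*} [Field F] (A : Matrix.SpecialLinearGroup (Fin 3) F) (j : ℕ) :
    (QuotientGroup.mk A : Matrix.ProjectiveSpecialLinearGroup (Fin 3) F) ^ j = 1 ↔
      ∃ c : F, (A : Matrix (Fin 3) (Fin 3) F) ^ j = c • (1 : Matrix (Fin 3) (Fin 3) F) := by
  classical
  have hcoe : ((A ^ j : Matrix.SpecialLinearGroup (Fin 3) F) : Matrix (Fin 3) (Fin 3) F) =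
      (A : Matrix (Fin 3) (Fin 3) F) ^ j := by
    rw [Matrix.SpecialLinearGroup.coe_pow]
  have hcenter : ∀ N : Matrix.SpecialLinearGroup (Fin 3) F,
      N ∈ Subgroup.center (Matrix.SpecialLinearGroup (Fin 3) F) ↔
      ∃ r : F, r ^ 3 = 1 ∧ (N : Matrix (Fin 3) (Fin 3) F) = r • 1 := by
    intro N
    rw [Matrix.SpecialLinearGroup.mem_center_iff, Fintype.card_fin]
    constructor
    · rintro ⟨r, hr, hM⟩
      exact ⟨r, hr, by rw [← hM, Matrix.smul_one_eq_diagonal]; rfl⟩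
    · rintro ⟨r, hr, hM⟩
      exact ⟨r, hr, by rw [hM, Matrix.smul_one_eq_diagonal]; rfl⟩
  rw [← QuotientGroup.mk_pow, QuotientGroup.eq_one_iff, hcenter, hcoe]
  constructor
  · rintro ⟨c, -, hc⟩
    exact ⟨c, hc⟩
  · rintro ⟨c, hc⟩
    refine ⟨c, ?_, hc⟩
    have h := congrArg Matrix.det hc
    rw [Matrix.det_pow, A.det_coe, one_pow, Matrix.det_smul, Matrix.det_one, mul_one,
      Fintype.card_fin] at h
    exact h.symm

theorem sub {F : Type*} [Field F] [Fintype F] (p : ℕ) (N1 N2 N3 N4 : ℕ)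
    (hT1 : ∀ M : Matrix (Fin 3) (Fin 3) F, M.det = 1 → Irreducible M.charpoly →
      ∃ c : F, M ^ N1 = c • (1 : Matrix (Fin 3) (Fin 3) F))
    (hT2 : ∀ M : Matrix (Fin 3) (Fin 3) F, M.det = 1 → ∀ (lam : F) (ψ : Polynomial F),
      ψ.Monic → ψ.natDegree = 2 → Irreducible ψ → M.charpoly = (X - C lam) * ψ →
      ∃ c : F, M ^ N2 = c • (1 : Matrix (Fin 3) (Fin 3) F))
    (hT3 : ∀ M : Matrix (Fin 3) (Fin 3) F, M.det = 1 → ∀ (lam mu nu : F),
      M.charpoly = (X - C lam) * ((X - C mu) * (X - C nu)) →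
      (∃ c : F, M ^ N3 = c • (1 : Matrix (Fin 3) (Fin 3) F)) ∨
      (∃ c : F, M ^ N4 = c • (1 : Matrix (Fin 3) (Fin 3) F)) ∨
      (p = 2 ∧ ∃ c : F, M ^ 4 = c • (1 : Matrix (Fin 3) (Fin 3) F)))
    (g : Matrix.ProjectiveSpecialLinearGroup (Fin 3) F) :
    orderOf g ∣ N1 ∨ orderOf g ∣ N2 ∨ orderOf g ∣ N3 ∨ orderOf g ∣ N4 ∨
      (p = 2 ∧ orderOf g ∣ 4) := by
  classical
  obtain ⟨A, rfl⟩ := QuotientGroup.mk_surjective g
  obtain ⟨M, hM⟩ : ∃ M : Matrix (Fin 3) (Fin 3) F, M = (A : Matrix (Fin 3) (Fin 3) F) :=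
    ⟨_, rfl⟩
  have hdet : M.det = 1 := by rw [hM]; exact A.det_coe
  have hord : ∀ N : ℕ, (∃ c : F, M ^ N = c • (1 : Matrix (Fin 3) (Fin 3) F)) →
      orderOf (QuotientGroup.mk A : Matrix.ProjectiveSpecialLinearGroup (Fin 3) F) ∣ N := by
    intro N h
    rw [hM] at h
    exact orderOf_dvd_of_pow_eq_one ((pow_iff A N).mpr h)
  have hmon : M.charpoly.Monic := Matrix.charpoly_monic M
  have hdeg : M.charpoly.natDegree = 3 := by
    rw [Matrix.charpoly_natDegree_eq_dim, Fintype.card_fin]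
  by_cases hroot : ∃ lam : F, M.charpoly.IsRoot lam
  · obtain ⟨lam, hlam⟩ := hroot
    obtain ⟨ψ, hψ⟩ := Polynomial.dvd_iff_isRoot.mpr hlam
    have hψm : ψ.Monic := by
      apply Polynomial.Monic.of_mul_monic_left (monic_X_sub_C lam)
      rw [← hψ]; exact hmon
    have hψd : ψ.natDegree = 2 := by
      have h1 := Polynomial.Monic.natDegree_mul (monic_X_sub_C lam) hψm
      rw [← hψ, hdeg, natDegree_X_sub_C] at h1
      omega
    by_cases hroot2 : ∃ mu : F, ψ.IsRoot mu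
    · obtain ⟨mu, hmu⟩ := hroot2
      obtain ⟨φ, hφ⟩ := Polynomial.dvd_iff_isRoot.mpr hmu
      have hφm : φ.Monic := by
        apply Polynomial.Monic.of_mul_monic_left (monic_X_sub_C mu)
        rw [← hφ]; exact hψm
      have hφd : φ.natDegree = 1 := by
        have h1 := Polynomial.Monic.natDegree_mul (monic_X_sub_C mu) hφm
        rw [← hφ, hψd, natDegree_X_sub_C] at h1
        omega
      obtain ⟨nu, hnu⟩ : ∃ nu : F, nu = -(φ.coeff 0) := ⟨_, rfl⟩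
      have hφe : φ = X - C nu := by
        rw [hnu, C_neg, sub_neg_eq_add]
        exact Polynomial.Monic.eq_X_add_C hφm hφd
      have hchar : M.charpoly = (X - C lam) * ((X - C mu) * (X - C nu)) := by
        rw [← hφe, ← hφ, ← hψ]
      rcases hT3 M hdet lam mu nu hchar with h | h | ⟨h2, h⟩
      · exact Or.inr (Or.inr (Or.inl (hord _ h)))
      · exact Or.inr (Or.inr (Or.inr (Or.inl (hord _ h))))
      · exact Or.inr (Or.inr (Or.inr (Or.inr ⟨h2, hord _ h⟩)))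
    · have hirr : Irreducible ψ :=
        Polynomial.irreducible_of_degree_le_three_of_not_isRoot (by rw [hψd]; decide)
          (fun x hx => hroot2 ⟨x, hx⟩)
      exact Or.inr (Or.inl (hord _ (hT2 M hdet lam ψ hψm hψd hirr hψ)))
  · have hirr : Irreducible M.charpoly :=
      Polynomial.irreducible_of_degree_le_three_of_not_isRoot (by rw [hdeg]; decide)
        (fun x hx => hroot ⟨x, hx⟩)
    exact Or.inl (hord _ (hT1 M hdet hirr))

theorem sup {F : Type*} [Field F] (N : ℕ) (hN : 0 < N)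
    (hE : ∃ M : Matrix (Fin 3) (Fin 3) F, M.det = 1 ∧
      (∃ c : F, M ^ N = c • (1 : Matrix (Fin 3) (Fin 3) F)) ∧
      ∀ j : ℕ, (∃ c : F, M ^ j = c • (1 : Matrix (Fin 3) (Fin 3) F)) → N ∣ j)
    (m : ℕ) (hm : m ∣ N) :
    m ∈ Set.range (orderOf : Matrix.ProjectiveSpecialLinearGroup (Fin 3) F → ℕ) := by
  classical
  obtain ⟨M, hdet, h1, h2⟩ := hE
  obtain ⟨A, hA⟩ : ∃ A : Matrix.SpecialLinearGroup (Fin 3) F, A = ⟨M, hdet⟩ := ⟨_, rfl⟩
  have hAM : (A : Matrix (Fin 3) (Fin 3) F) = M := by rw [hA]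
  obtain ⟨g, hg⟩ : ∃ g : Matrix.ProjectiveSpecialLinearGroup (Fin 3) F,
      g = QuotientGroup.mk A := ⟨_, rfl⟩
  have hpow : ∀ j : ℕ, g ^ j = 1 ↔ ∃ c : F, M ^ j = c • (1 : Matrix (Fin 3) (Fin 3) F) := by
    intro j
    rw [hg, pow_iff A j, hAM]
  have hord : orderOf g = N :=
    Nat.dvd_antisymm (orderOf_dvd_of_pow_eq_one ((hpow N).mpr h1))
      (h2 _ ((hpow _).mp (pow_orderOf_eq_one g)))
  obtain ⟨e, he⟩ := hm
  have he0 : e ≠ 0 := by
    rintro rfl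
    rw [mul_zero] at he
    omega
  refine ⟨g ^ e, ?_⟩
  have hdv : e ∣ orderOf g := by
    rw [hord, he]
    exact Dvd.intro_left m rfl
  rw [orderOf_pow_of_dvd he0 hdv, hord, he, Nat.mul_div_cancel m (Nat.pos_of_ne_zero he0)]

end Cfsg.Agent.Helper14.Psl3
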