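import Mathlib

set_option autoImplicit false

namespace Cfsg.Agent.Helper14.Psl3f

open Matrix Polynomial

theorem two_eq {F : Type*} [Field F] [Fintype F] (p : ℕ) [Fact p.Prime] [CharP F p]
    (M : Matrix (Fin 3) (Fin 3) F) (a b : F) (hab : a ^ 2 * b = 1)
    (hchar : M.charpoly = (X - C a) ^ 2 * (X - C b)) :
    (∃ c : F, M ^ (p * (Fintype.card F - 1) / Nat.gcd 3 (Fintype.card F - 1)) =
      c • (1 : Matrix (Fin 3) (Fin 3) F)) ∨
    (p = 2 ∧ ∃ c : F, M ^ 4 = c • (1 : Matrix (Fin 3) (Fin 3) F)) := by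
  classical
  have hpp : p.Prime := Fact.out
  have ha0 : a ≠ 0 := by
    intro h
    rw [h, zero_pow (by norm_num), zero_mul] at hab
    exact zero_ne_one hab
  obtain ⟨t, ht⟩ : ∃ t, Fintype.card F = t + 1 :=
    ⟨Fintype.card F - 1, by have := Fintype.card_pos (α := F); omega⟩
  have hq1 : Fintype.card F - 1 = t := by omega
  rw [hq1]
  have hat : a ^ t = 1 := by
    rw [← hq1]; exact FiniteField.pow_card_sub_one_eq_one a ha0
  obtain ⟨d, hd⟩ : ∃ d, d = Nat.gcd 3 t := ⟨_, rfl⟩
  have hd3 : d ∣ 3 := by rw [hd]; exact Nat.gcd_dvd_left 3 t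
  have hdt : d ∣ t := by rw [hd]; exact Nat.gcd_dvd_right 3 t
  have hd0 : 0 < d := by rw [hd]; exact Nat.gcd_pos_of_pos_left _ (by norm_num)
  obtain ⟨e, he⟩ := hdt
  obtain ⟨f, hf⟩ := hd3
  have hdiv : p * t / d = p * e := by
    apply Nat.div_eq_of_eq_mul_right hd0
    rw [he]; ring
  rw [← hd, hdiv]
  have h3e : 3 * e = f * t := by
    rw [he]
    calc 3 * e = (d * f) * e := by rw [← hf]
      _ = f * (d * e) := by ring
  have hCH := Matrix.aeval_self_charpoly M
  rw [hchar] at hCH
  by_cases hne : a = b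
  · obtain ⟨N, hN⟩ : ∃ N : Matrix (Fin 3) (Fin 3) F, N = M - a • 1 := ⟨_, rfl⟩
    have hN3 : N ^ 3 = 0 := by
      rw [← hne] at hCH
      rw [map_mul, map_pow, map_sub, Polynomial.aeval_X, Polynomial.aeval_C,
        Algebra.algebraMap_eq_smul_one, ← hN, ← pow_succ] at hCH
      exact hCH
    have hM : M = a • 1 + N := by rw [hN]; abel
    have hcomm : Commute (a • (1 : Matrix (Fin 3) (Fin 3) F)) N := by
      rw [Commute, SemiconjBy, smul_mul_assoc, one_mul, mul_smul_comm, mul_one]
    have hNk : ∀ k : ℕ, 3 ≤ k → N ^ k = 0 := by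
      intro k hk
      obtain ⟨j, rfl⟩ : ∃ j, k = 3 + j := ⟨k - 3, by omega⟩
      rw [pow_add, hN3, zero_mul]
    by_cases hp2 : p = 2
    · right
      refine ⟨hp2, a ^ 4, ?_⟩
      have h1 := add_pow_char_pow_of_commute p 2 hcomm
      have h4 : p ^ 2 = 4 := by rw [hp2]; norm_num
      rw [← hM, h4, hNk 4 (by norm_num), add_zero, _root_.smul_pow, one_pow] at h1
      exact h1
    · left
      have hp3 : 3 ≤ p := by have := hpp.two_le; omega
      have h1 := add_pow_char_of_commute p hcomm
      rw [← hM, hNk p hp3, add_zero, _root_.smul_pow, one_pow] at h1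
      exact ⟨(a ^ p) ^ e, by rw [pow_mul, h1, _root_.smul_pow, one_pow]⟩
  · left
    refine ⟨a ^ (p * e), ?_⟩
    have hdvd1 : (X - C a) ^ 2 ∣ X ^ (p * e) - C (a ^ (p * e)) := by
      have h1 : (X - C a) ∣ X ^ e - C (a ^ e) := by
        rw [Polynomial.dvd_iff_isRoot, Polynomial.IsRoot.def, Polynomial.eval_sub,
          Polynomial.eval_pow, Polynomial.eval_X, Polynomial.eval_C, sub_self]
      have h2 : X ^ (p * e) - C (a ^ (p * e)) = (X ^ e - C (a ^ e)) ^ p := by
        rw [sub_pow_char, ← pow_mul, ← map_pow, ← pow_mul, mul_comm e p]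
      rw [h2]
      exact dvd_trans (pow_dvd_pow _ hpp.two_le) (pow_dvd_pow_of_dvd h1 p)
    have hb : b ^ (p * e) = a ^ (p * e) := by
      have h1 : b ^ (p * e) * (a ^ 2) ^ (p * e) = 1 := by
        rw [← mul_pow, mul_comm b (a ^ 2), hab, one_pow]
      have h2 : a ^ (p * e) * (a ^ 2) ^ (p * e) = 1 := by
        rw [← pow_mul, ← pow_add]
        have h3 : p * e + 2 * (p * e) = t * (f * p) := by
          have h4 : p * e + 2 * (p * e) = (3 * e) * p := by ring
          rw [h4, h3e]
          ring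
        rw [h3, pow_mul, hat, one_pow]
      exact mul_right_cancel₀ (pow_ne_zero _ (pow_ne_zero _ ha0)) (h1.trans h2.symm)
    have hdvd2 : (X - C b) ∣ X ^ (p * e) - C (a ^ (p * e)) := by
      rw [Polynomial.dvd_iff_isRoot, Polynomial.IsRoot.def, Polynomial.eval_sub,
        Polynomial.eval_pow, Polynomial.eval_X, Polynomial.eval_C, hb, sub_self]
    have hcop : IsCoprime ((X - C a) ^ 2) (X - C b) :=
      (Polynomial.isCoprime_X_sub_C_of_isUnit_sub (sub_ne_zero.mpr hne).isUnit).pow_left
    obtain ⟨g, hg⟩ := hcop.mul_dvd hdvd1 hdvd2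
    have h2 : Polynomial.aeval M (X ^ (p * e) - C (a ^ (p * e))) = 0 := by
      rw [hg, map_mul, hCH, zero_mul]
    rw [map_sub, map_pow, Polynomial.aeval_X, Polynomial.aeval_C,
      Algebra.algebraMap_eq_smul_one] at h2
    exact sub_eq_zero.mp h2

theorem case_split {F : Type*} [Field F] [Fintype F] (p : ℕ) [Fact p.Prime] [CharP F p]
    (M : Matrix (Fin 3) (Fin 3) F) (hdet : M.det = 1) (lam mu nu : F)
    (hchar : M.charpoly = (X - C lam) * ((X - C mu) * (X - C nu))) :
    (∃ c : F, M ^ (Fintype.card F - 1) = c • (1 : Matrix (Fin 3) (Fin 3) F)) ∨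
    (∃ c : F, M ^ (p * (Fintype.card F - 1) / Nat.gcd 3 (Fintype.card F - 1)) =
      c • (1 : Matrix (Fin 3) (Fin 3) F)) ∨
    (p = 2 ∧ ∃ c : F, M ^ 4 = c • (1 : Matrix (Fin 3) (Fin 3) F)) := by
  classical
  have hprod : lam * mu * nu = 1 := by
    have h2 := Matrix.det_eq_sign_charpoly_coeff M
    rw [hdet, Fintype.card_fin, hchar] at h2
    simp only [Polynomial.mul_coeff_zero, Polynomial.coeff_sub, Polynomial.coeff_X_zero,
      Polynomial.coeff_C_zero] at h2
    linear_combination (-1 : F) * h2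
  by_cases h1 : lam = mu
  · right
    apply two_eq p M lam nu
    · calc lam ^ 2 * nu = lam * mu * nu := by rw [h1]; ring
        _ = 1 := hprod
    · rw [hchar, h1]; ring
  · by_cases h2 : lam = nu
    · right
      apply two_eq p M lam mu
      · calc lam ^ 2 * mu = lam * mu * nu := by rw [← h2]; ring
          _ = 1 := hprod
      · rw [hchar, ← h2]; ring
    · by_cases h3 : mu = nu
      · right
        apply two_eq p M mu lam
        · calc mu ^ 2 * lam = lam * mu * nu := by rw [← h3]; ring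
            _ = 1 := hprod
        · rw [hchar, ← h3]; ring
      · left
        have hne0 : ∀ x : F, x ≠ 0 → (X - C x) ∣ (X ^ (Fintype.card F - 1) - C (1 : F)) := by
          intro x hx
          rw [Polynomial.dvd_iff_isRoot, Polynomial.IsRoot.def, Polynomial.eval_sub,
            Polynomial.eval_pow, Polynomial.eval_X, Polynomial.eval_C,
            FiniteField.pow_card_sub_one_eq_one x hx, sub_self]
        have hl0 : lam ≠ 0 := by
          intro h; rw [h, zero_mul, zero_mul] at hprod; exact zero_ne_one hprod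
        have hm0 : mu ≠ 0 := by
          intro h; rw [h, mul_zero, zero_mul] at hprod; exact zero_ne_one hprod
        have hn0 : nu ≠ 0 := by
          intro h; rw [h, mul_zero] at hprod; exact zero_ne_one hprod
        have hc1 : IsCoprime (X - C mu) (X - C nu) :=
          Polynomial.isCoprime_X_sub_C_of_isUnit_sub (sub_ne_zero.mpr h3).isUnit
        have hc2 : IsCoprime (X - C lam) ((X - C mu) * (X - C nu)) :=
          IsCoprime.mul_right
            (Polynomial.isCoprime_X_sub_C_of_isUnit_sub (sub_ne_zero.mpr h1).isUnit)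
            (Polynomial.isCoprime_X_sub_C_of_isUnit_sub (sub_ne_zero.mpr h2).isUnit)
        obtain ⟨g, hg⟩ := hc2.mul_dvd (hne0 lam hl0) (hc1.mul_dvd (hne0 mu hm0) (hne0 nu hn0))
        have hCH := Matrix.aeval_self_charpoly M
        rw [hchar] at hCH
        have h5 : Polynomial.aeval M (X ^ (Fintype.card F - 1) - C (1 : F)) = 0 := by
          rw [hg, map_mul, hCH, zero_mul]
        rw [map_sub, map_pow, Polynomial.aeval_X, Polynomial.aeval_C,
          Algebra.algebraMap_eq_smul_one] at h5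
        exact ⟨1, sub_eq_zero.mp h5⟩

end Cfsg.Agent.Helper14.Psl3f
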